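import Cfsg.Agent.H383.Cov.TenRes
import Cfsg.Agent.H383.Cov.Plus
import Cfsg.Agent.H925.Plus10c
import Cfsg.Agent.H905.SLProper
import Cfsg.Agent.LieClassical.OmegaReindex

/-!
# S2499: the groups `PΩ⁺₁₀(q)`, `q = 3, 4, 5` (helper383)

`noTwo_ten` (inputs: S5948 and S5848).
-/

set_option autoImplicit false
set_option linter.unusedSectionVars false

namespace Cfsg.Agent.H383.Cov.Ten

open Module Cfsg Cfsg.Geo
open Cfsg.Agent.LieClassical.OrthCore Cfsg.Agent.LieClassical.OrthForms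
open Cfsg.Agent.LieClassical.OmegaReindex (reindexForm isometryGroupReindex)
open Cfsg.Agent.H182.Sign
open Cfsg.Agent.H278.Cov (Red Ext Num Av Inc NoTwo noTwo_of_three)
open Cfsg.Agent.H659.CovCore (S5948Stmt prime_dvd_subfield)
open Cfsg.Agent.H689 (Ppd exists_ppd)
open scoped MatrixGroups Matrix

variable {F : Type} [Field F] [Fintype F]

/-! ### decompositions -/

section

variable {ι : Type} [Fintype ι] [DecidableEq ι]

theorem map_pow {t : ℕ} {D : Fin t → Submodule F (ι → F)} {x : GL ι F} {σ : Equiv.Perm (Fin t)}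
    (h : ∀ i, (D i).map (Matrix.toLin' (x : Matrix ι ι F)) = D (σ i)) (n : ℕ) (i : Fin t) :
    (D i).map (Matrix.toLin' ((x ^ n : GL ι F) : Matrix ι ι F)) = D ((σ ^ n) i) := by
  induction n generalizing i with
  | zero => simp
  | succ n ih =>
    rw [pow_succ, Units.val_mul, Matrix.toLin'_mul, Submodule.map_comp, h, ih, pow_succ, Equiv.Perm.mul_apply]

theorem stab_of_coprime {t : ℕ} {D : Fin t → Submodule F (ι → F)} {x : GL ι F} (hx : x ∈ decompositionStabilizer D)
    (hco : (orderOf x).Coprime t.factorial) (i : Fin t) : ∀ w ∈ D i, (x : Matrix ι ι F) *ᵥ w ∈ D i := by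
  obtain ⟨σ, hσ⟩ := hx
  have h1 : orderOf σ ∣ t.factorial := by
    have := orderOf_dvd_natCard σ
    rwa [Nat.card_perm, Nat.card_fin] at this
  have hco' : (orderOf x).Coprime (orderOf σ) := Nat.Coprime.coprime_dvd_right h1 hco
  obtain ⟨j, hj1, hj2⟩ := exists_pow_left (pow_orderOf_eq_one x) (pow_orderOf_eq_one σ) hco'
  have h2 := map_pow hσ j i
  rw [hj1, hj2] at h2
  intro w hw
  have h3 : (x : Matrix ι ι F) *ᵥ w ∈ (D i).map (Matrix.toLin' (x : Matrix ι ι F)) := ⟨w, hw, Matrix.toLin'_apply _ _⟩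
  rw [h2] at h3
  exact h3

end

/-! ### arithmetic -/

theorem sub_aux {q₀ l : ℕ} (hl : Ppd (q₀ ^ 2) 6 l) {j : ℕ} (hj : 1 ≤ j) (hj10 : j ≤ 10)
    (hd : l ∣ q₀ ^ j - 1) : False := by
  have h1 : l ∣ (q₀ ^ 2) ^ j - 1 := by
    rw [← pow_mul, mul_comm, pow_mul]
    exact hd.trans (Nat.sub_one_dvd_pow_sub_one _ _)
  rw [hl.iff] at h1
  obtain ⟨k, rfl⟩ := h1
  have hk : k = 1 := by omega
  subst hk
  have h2 : l ∣ (q₀ ^ 2) ^ 3 - 1 := by rw [← pow_mul]; exact hd
  rw [hl.iff] at h2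
  exact absurd h2 (by decide)

theorem no_root {q a r : ℕ} (hr : r.Prime) (h : q = a ^ r) (hq : q = 3 ∨ q = 4 ∨ q = 5) (ha : 2 ≤ a) :
    q = 4 ∧ a = 2 ∧ r = 2 := by
  have h1 : 2 ^ r ≤ a ^ r := Nat.pow_le_pow_left ha r
  have hr2 := hr.two_le
  have hr3 : r < 3 := by
    by_contra hcon
    have h2 : 2 ^ 3 ≤ 2 ^ r := Nat.pow_le_pow_right (by norm_num) (by omega)
    omega
  have hr' : r = 2 := by omega
  subst hr'
  have h5 : a ^ 2 ≤ 5 := by omega
  have ha3 : a < 3 := by nlinarith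
  have : a = 2 := by omega
  subst this
  omega

/-! ### the main case distinction -/

theorem ten_BC (hR : S5848Stmt) {Q : (Fin 10 → F) → F} (hQ : IsNondegenerateQuadraticForm Q)
    (hplus : IsPlusTypeOn Q ⊤) (hq : Fintype.card F = 3 ∨ Fintype.card F = 4 ∨ Fintype.card F = 5)
    {M : Subgroup (GL (Fin 10) F)} (hM : IsMaximalIn (omegaGL Q) M) {b c : GL (Fin 10) F} (hb : b ∈ M) (hc : c ∈ M)
    (hbo : Odd (orderOf b)) {l i : ℕ} (hl : Ppd (Fintype.card F) 6 l) (hbl : orderOf (b ^ i) = l)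
    (db : Dims b {0, 4, 6, 10}) {N : ℕ} (hN : N * (Fintype.card F - 1) = Fintype.card F ^ 5 - 1)
    (hcN : orderOf c = N) (hNo : Odd N) (dc : Dims c {d | 5 ∣ d}) (P : Polynomial F)
    (hP : Odd (finrank F (LinearMap.ker (Matrix.toLin' (Polynomial.aeval (c : Matrix (Fin 10) (Fin 10) F) P))))) :
    False := by
  have hirr : ActsIrreducibly (matrixSet M) := by
    intro W hW
    have hinv : ∀ z ∈ M, ∀ w ∈ W, (z : Matrix (Fin 10) (Fin 10) F) *ᵥ w ∈ W := by
      intro z hz w hw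
      exact hW _ ⟨z, hz, rfl⟩ ⟨w, hw, Matrix.toLin'_apply _ _⟩
    have h1 := db W (hinv b hb)
    have h2 := dc W (hinv c hc)
    simp only [Set.mem_insert_iff, Set.mem_singleton_iff, Set.mem_ofPred_eq] at h1 h2
    have h3 : finrank F W = 0 ∨ finrank F W = 10 := by omega
    rcases h3 with h3 | h3
    · exact Or.inl (Submodule.finrank_eq_zero.1 h3)
    · right
      apply Submodule.eq_top_of_finrank_eq
      rw [h3, Module.finrank_fintype_fun_eq_card, Fintype.card_fin]
  have h5 : Fintype.card F = 5 → N = 781 := by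
    intro h
    rw [h] at hN
    omega
  rcases H925.plus10_irreducible (Fintype.card_fin 10) hQ hplus hM.1.le hirr with
    ⟨⟨p, hp, hcp, hp4⟩, D, hD, h⟩ | ⟨h7, -⟩ | ⟨h1, D, hD, h⟩ | ⟨ho, K, hK, -, h⟩ | ⟨F₀, r, X, ζ, hr, hcard, -, -, h⟩ | h
  · have hq5 : Fintype.card F = 5 := by omega
    have h2 := stab_of_coprime (h hc) (by rw [hcN, h5 hq5]; decide) 0
    have h3 := dc _ h2
    rw [Set.mem_ofPred_eq, hD.decomp.decomp.finrank_eq] at h3
    exact absurd h3 (by decide)
  · omega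
  · have h2 := stab_of_coprime (h hb) (Nat.coprime_two_right.2 hbo) 0
    have h3 := db _ h2
    rw [hD.decomp.decomp.finrank_eq] at h3
    simp at h3
  · have h2 := kill hK (h hc) (by rw [hcN]; exact Nat.coprime_two_right.2 hNo) P
    exact (Nat.not_even_iff_odd.2 hP) (even_iff_two_dvd.2 h2)
  · have h0 : 2 ≤ Nat.card F₀ := Finite.one_lt_card
    obtain ⟨hq4, ha, hr2⟩ := no_root hr hcard hq h0
    have h1 : l ∣ Nat.card (subfieldSubgroup F₀ X) := by
      rw [← hbl, ← Subgroup.orderOf_mk (b ^ i) (h (M.pow_mem hb i))]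
      exact orderOf_dvd_natCard _
    rcases prime_dvd_subfield F₀ X hl.prime h1 with h2 | h2 | ⟨j, hj1, hj2, h2⟩
    · have h3 : l ∣ Fintype.card F ^ 1 - 1 := by rwa [pow_one]
      rw [hl.iff] at h3
      exact absurd h3 (by decide)
    · rw [ha] at h2
      have h3 := Nat.le_of_dvd (by norm_num) h2
      have h4 := hl.two_lt (by norm_num)
      omega
    · rw [hcard, hr2] at hl
      exact sub_aux hl hj1 hj2 h2
  · exact residual hR hQ hplus hM h hq hc hN hcN

theorem core (hP : S5948Stmt.{0}) (hR : S5848Stmt) {Q : QuadraticForm F (Fin 10 → F)} (hQ : Sg Q 5 1)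
    (hplus : IsPlusTypeOn (⇑Q) ⊤) (hq : Fintype.card F = 3 ∨ Fintype.card F = 4 ∨ Fintype.card F = 5) :
    NoTwo (Omega F ⇑Q) := by
  have hq1 : 2 ≤ Fintype.card F := Fintype.one_lt_card
  have hpp : IsPrimePow (Fintype.card F) := Fintype.isPrimePow_card_of_field
  have hn : Fintype.card (Fin 10) = 10 := Fintype.card_fin 10
  have hQ' : IsNondegenerateQuadraticForm ⇑Q := isNondeg hQ.nondeg
  obtain ⟨m, hm⟩ := H906.Cov.exists_num hpp (n := 10) (k := 8) (by norm_num) (by norm_num) (by norm_num)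
    (fun h => by omega) (by norm_num)
  obtain ⟨l, hl⟩ := exists_ppd (q := Fintype.card F) (k := 6) hq1 (by norm_num) (by rintro ⟨h, -⟩; omega)
  obtain ⟨s, hs⟩ := exists_ppd (q := Fintype.card F) (k := 4) hq1 (by norm_num) (by rintro ⟨h, -⟩; omega)
  obtain ⟨t, ht⟩ := exists_ppd (q := Fintype.card F) (k := 5) hq1 (by norm_num) (by rintro ⟨h, -⟩; omega)
  obtain ⟨N, hN, hNo⟩ : ∃ N, N * (Fintype.card F - 1) = Fintype.card F ^ 5 - 1 ∧ Odd N := by
    rcases hq with h | h | h <;> rw [h]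
    · exact ⟨121, by norm_num, by decide⟩
    · exact ⟨341, by norm_num, by decide⟩
    · exact ⟨781, by norm_num, by decide⟩
  have htN : t ∣ N := by
    have h1 := (ht.iff 5).2 dvd_rfl
    rw [← hN] at h1
    have h2 := ppd_cop ht le_rfl (by norm_num : 1 < 5)
    rw [pow_one] at h2
    exact h2.dvd_of_dvd_mul_right h1
  obtain ⟨A, hA, nA, dA⟩ := exA hQ hn hm
  obtain ⟨B, hB, hBo, ⟨j, hBj, bB⟩, dB⟩ := exB hQ hn hl hs
  obtain ⟨C, hC, hCN, ⟨P, hker⟩, dC⟩ := exC hQ hn ht htN (Dvd.intro _ hN) hNo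
  obtain ⟨A', rfl⟩ : ∃ A', emb ⇑Q A' = A := by rw [← range_emb] at hA; exact hA
  obtain ⟨B', rfl⟩ : ∃ B', emb ⇑Q B' = B := by rw [← range_emb] at hB; exact hB
  obtain ⟨C', rfl⟩ : ∃ C', emb ⇑Q C' = C := by rw [← range_emb] at hC; exact hC
  have og : ∀ (H : Subgroup (GL (Fin 10) F)), H ≤ omegaGL ⇑Q → H ≠ omegaGL ⇑Q → ∀ g : GL (Fin 10) F,
      g * emb ⇑Q A' * g⁻¹ ∈ H → Red H ∨ ∃ E : Subalgebra F (Matrix (Fin 10) (Fin 10) F), IsFieldSubalgebra 2 E ∧
        H ≤ subalgebraNormalizer E := by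
    intro H hle hne g hg
    have h1 := (nA.conj g).num
    rw [hn] at h1
    rcases H558.Cov.og_o hP hQ' hle hne hg (by rw [hn]; exact h1) with h | ⟨r, E, hr, hrd, hE, hN⟩
    · exact Or.inl h
    · have h2 : Nat.gcd (Fintype.card (Fin 10)) (2 * 4) = 2 := by rw [hn]; rfl
      rw [h2] at hrd
      obtain rfl := (Nat.prime_dvd_prime_iff_eq hr Nat.prime_two).1 hrd
      exact Or.inr ⟨E, hE, hN⟩
  refine noTwo_of_three (x := A') (y := B') (z := C') (inc_of fun H hle hne g g' h1 h2 => ?_)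
    (inc_of fun H hle hne g g' h1 h2 => ?_) (inc_of fun H hle hne g g' h1 h2 => ?_)
  · by_cases hRd : Red H
    · refine red_dims hRd h1 h2 (dA.conj g) (dB.conj g') fun d h0 h10 h3 h4 => ?_
      rw [hn] at h10
      simp only [Set.mem_insert_iff, Set.mem_singleton_iff, Set.mem_ofPred_eq] at h3 h4
      omega
    obtain ⟨E, hE, hEN⟩ := (og H hle hne g h1).resolve_left hRd
    have hiso : H ≤ isometryGroup F ⇑Q := hle.trans (omegaGL_le ⇑Q)
    have hy := H.pow_mem h2 j
    rw [pow_conj] at hy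
    have nx := nA.conj g
    refine parity hQ' hiso hRd hE hEN h1 hy (a := 4) (b := 3) (by norm_num) (by norm_num) (by decide) (by decide)
      nx.odd ?_ nx.dvd ?_ nx.blk (bB.conj g')
    · rw [orderOf_conj, hBj]
      exact ppd_odd hl (by norm_num)
    · rw [orderOf_conj, hBj, Nat.card_eq_fintype_card]
      exact ppd_half (by norm_num) (show Ppd _ (2 * 3) l from hl)
  · obtain ⟨M, hM, hHM⟩ := H905.exists_isMaximalIn_of_lt (lt_of_le_of_ne hle hne)
    refine ten_BC hR hQ' hplus hq hM (hHM h1) (hHM h2) (by rw [orderOf_conj]; exact hBo) hl (i := j) ?_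
      (dB.conj g) hN (by rw [orderOf_conj]; exact hCN) hNo (dC.conj g') P (by rw [ker_conj]; exact hker)
    rw [pow_conj, orderOf_conj, hBj]
  · rcases og H hle hne g h1 with hRd | ⟨E, hE, hEN⟩
    · refine red_dims hRd h1 h2 (dA.conj g) (dC.conj g') fun d h0 h10 h3 h4 => ?_
      rw [hn] at h10
      simp only [Set.mem_ofPred_eq] at h3 h4
      omega
    · have h3 := kill hE (hEN h2) (by rw [orderOf_conj, hCN]; exact Nat.coprime_two_right.2 hNo) P
      rw [ker_conj] at h3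
      exact (Nat.not_even_iff_odd.2 hker) (even_iff_two_dvd.2 h3)

/-! ### reindexing -/

def omegaCongr {G H : Type} [Group G] [Group H] (e : G ≃* H) : commutator G ≃* commutator H :=
  (e.subgroupMap (commutator G)).trans (MulEquiv.subgroupCongr (by
    rw [commutator_def, Subgroup.map_commutator, ← MonoidHom.range_eq_map, commutator_def]
    congr 1 <;> exact MonoidHom.range_eq_top.2 e.surjective))

theorem plusType {ι : Type} [Fintype ι] [DecidableEq ι] (e : Fin 5 ⊕ Fin 5 ≃ ι) (hι : Fintype.card ι = 10) :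
    IsPlusTypeOn (⇑(reindexForm e (plusForm 5 F))) ⊤ := by
  let f : (Fin 5 → F) →ₗ[F] (ι → F) :=
    { toFun := fun v i => Sum.elim v 0 (e.symm i)
      map_add' := fun v w => by
        funext i
        rcases h : e.symm i with j | j <;> simp [h]
      map_smul' := fun a v => by
        funext i
        rcases h : e.symm i with j | j <;> simp [h] }
  have hf : Function.Injective f := by
    intro v w h
    funext j
    have h1 := congrFun h (e (Sum.inl j))
    simpa [f] using h1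
  refine ⟨LinearMap.range f, le_top, ?_, ?_⟩
  · rintro _ ⟨v, rfl⟩
    have h1 : (f v) ∘ e = Sum.elim v 0 := by
      funext j
      simp [f]
    rw [LieClassical.OmegaReindex.reindexForm_apply, h1, coe_plusForm, Cfsg.quadFormPlus]
    simp
  · rw [LinearMap.finrank_range_of_inj hf, finrank_top, Module.finrank_fintype_fun_eq_card,
      Module.finrank_fintype_fun_eq_card, hι, Fintype.card_fin]

/-- **`PΩ⁺₁₀(q)`, `q = 3, 4, 5`.** -/
theorem noTwo_ten (hP : S5948Stmt.{0}) (hR : S5848Stmt)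
    (hq : Fintype.card F = 3 ∨ Fintype.card F = 4 ∨ Fintype.card F = 5) :
    NoTwo (POmega F (quadFormPlus 5 F)) := by
  let e : Fin 5 ⊕ Fin 5 ≃ Fin 10 := Fintype.equivFinOfCardEq (by simp)
  have hs : Sg (reindexForm e (plusForm 5 F)) 5 1 := by
    refine (sg_plusForm (F := F) 5).congr (LinearEquiv.funCongrLeft F F e.symm) fun v => ?_
    rw [LieClassical.OmegaReindex.reindexForm_apply]
    congr 1
    funext i
    simp [LinearEquiv.funCongrLeft, LinearMap.funLeft]
  have key := core hP hR hs (plusType e (Fintype.card_fin 10)) hq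
  have key2 : NoTwo (Omega F ⇑(plusForm 5 F)) :=
    key.congr (omegaCongr (isometryGroupReindex e (⇑(plusForm 5 F)) (⇑(reindexForm e (plusForm 5 F)))
      (fun v => rfl))).symm
  rw [coe_plusForm] at key2
  exact key2.of_surjective (QuotientGroup.mk' _) (QuotientGroup.mk'_surjective _)

/-- **`PΩ⁺_{2m}(q)`, `m ≥ 5`,** except `q = 2`, `m ≤ 8`. -/
theorem noTwo_plus_five (hP : S5948Stmt.{0}) (hR : S5848Stmt) {m : ℕ} (hm : 5 ≤ m)
    (h2 : Fintype.card F = 2 → 9 ≤ m) : NoTwo (POmega F (quadFormPlus m F)) := by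
  by_cases h : m = 5 ∧ Fintype.card F < 7
  · obtain ⟨rfl, h7⟩ := h
    have h1 : 2 ≤ Fintype.card F := Fintype.one_lt_card
    have h3 : Fintype.card F ≠ 6 := by
      intro h6
      obtain ⟨p, k, hp, hk, hpk⟩ := Fintype.isPrimePow_card_of_field (α := F)
      rw [h6] at hpk
      have hp' := Nat.prime_iff.2 hp
      have a2 : 2 ∣ p ^ k := by rw [hpk]; norm_num
      have a3 : 3 ∣ p ^ k := by rw [hpk]; norm_num
      have e2 := (Nat.prime_dvd_prime_iff_eq Nat.prime_two hp').1 (Nat.prime_two.dvd_of_dvd_pow a2)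
      have e3 := (Nat.prime_dvd_prime_iff_eq Nat.prime_three hp').1 (Nat.prime_three.dvd_of_dvd_pow a3)
      omega
    exact noTwo_ten hP hR (by omega)
  · exact noTwo_plus hP hm h2 fun h5 => by omega

end Cfsg.Agent.H383.Cov.Ten
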