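import Cfsg.Agent.H383.Cov.Ten

/-!
# S2499: the group `PΩ⁺₁₀(2)` (helper383)

`noTwo_ten_two` (input: S5848): all maximal subgroups are reducible; the elements `neg 4 + neg 1`, `neg 3 + neg 2`, `pos 5`
have no common dimensions of invariant subspaces. `exNN` : elements `neg a + neg e` in general.
-/

set_option autoImplicit false
set_option linter.unusedSectionVars false

namespace Cfsg.Agent.H383.Cov.Ten

open Module Cfsg Cfsg.Geo
open Cfsg.Agent.LieClassical.OrthCore Cfsg.Agent.LieClassical.OrthForms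
open Cfsg.Agent.LieClassical.OmegaReindex (reindexForm isometryGroupReindex)
open Cfsg.Agent.H182.Sign
open Cfsg.Agent.H278.Cov (Red Ext Num Av Inc NoTwo noTwo_of_three)
open Cfsg.Agent.H689 (Ppd exists_ppd)
open scoped MatrixGroups Matrix

variable {F : Type} [Field F] [Fintype F]

/-- elements `neg a + neg e` -/
theorem exNN {ι : Type} [Fintype ι] [DecidableEq ι] {Q : QuadraticForm F (ι → F)} {a e m M N : ℕ} (hQ : Sg Q m 1)
    (h5 : 5 ≤ Fintype.card ι) (hm : a + e = m) (ha : a ≠ 0) (he : e ≠ 0)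
    (hM : M ∣ Fintype.card F ^ a + 1) (hMo : Odd M) (hM1 : ∀ j, 1 ≤ j → j < 2 * a → ¬ M ∣ Fintype.card F ^ j - 1)
    (hN : N ∣ Fintype.card F ^ e + 1) (hNo : Odd N) (hN1 : ∀ j, 1 ≤ j → j < 2 * e → ¬ N ∣ Fintype.card F ^ j - 1)
    (hc : M.Coprime N) :
    ∃ A : GL ι F, A ∈ omegaGL ⇑Q ∧ Odd (orderOf A) ∧ Dims A {0, 2 * e, 2 * a, 2 * m} := by
  obtain ⟨L, _, _, _, Q₁, u, s1, s2, s3, s4, s5⟩ := exists_negN (F := F) ha hM
  obtain ⟨L', _, _, _, Q₂, u', t1, t2, t3, t4, t5⟩ := exists_negN (F := F) he hN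
  have hfL : FiniteDimensional F L := Module.Finite.of_finite
  have hfL' : FiniteDimensional F L' := Module.Finite.of_finite
  have hs := s1.prod t1
  rw [hm, show (-1 : ℤ) * -1 = 1 by norm_num] at hs
  have hM11 : M ≠ 1 := by
    rintro rfl
    exact hM1 1 le_rfl (by omega) (one_dvd _)
  have hN11 : N ≠ 1 := by
    rintro rfl
    exact hN1 1 le_rfl (by omega) (one_dvd _)
  have p1 : (LinearMap.mulLeft F u : Module.End F L) ^ M = 1 := by
    rw [mulLeft_pow, mulLeft_eq_one, ← s3, pow_orderOf_eq_one]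
  have p2 : (LinearMap.mulLeft F u' : Module.End F L') ^ N = 1 := by
    rw [mulLeft_pow, mulLeft_eq_one, ← t3, pow_orderOf_eq_one]
  have hpow : ((LinearMap.mulLeft F u).prodMap (LinearMap.mulLeft F u') : Module.End F (L × L')) ^ (M * N) = 1 := by
    rw [pair_pow, pow_mul, p1, one_pow, mul_comm, pow_mul, p2, one_pow]
    rfl
  obtain ⟨A, hA, hsim⟩ := exists_sim hQ h5 hs
    (x := (LinearMap.mulLeft F u).prodMap (LinearMap.mulLeft F u')) (M := M * N)
    (by
      intro v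
      rw [prodForm_apply, prodForm_apply]
      change Q₁ (u * v.1) + Q₂ (u' * v.2) = _
      rw [s5, t5])
    (hMo.mul hNo) hpow
  refine ⟨A, hA, ?_, ?_⟩
  · refine Odd.of_dvd_nat (hMo.mul hNo) ?_
    rw [hsim.orderOf_eq]
    exact orderOf_dvd_of_pow_eq_one hpow
  · apply hsim.dims
    intro W hW
    obtain ⟨s, hs', t, ht', hst⟩ := pair_dims p1 p2 hc (mulLeft_free (ne_one_of_order s3 hM11))
      (irr_case s2 s4 (by rw [s3]; exact hM1)) (irr_case t2 t4 (by rw [t3]; exact hN1)) hW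
    rw [hst]
    simp only [Set.mem_insert_iff, Set.mem_singleton_iff] at hs' ht' ⊢
    omega

/-- all proper subgroups of `Ω⁺₁₀(2)` are reducible -/
theorem red_two (hR : S5848Stmt) {Q : (Fin 10 → F) → F} (hQ : IsNondegenerateQuadraticForm Q)
    (hplus : IsPlusTypeOn Q ⊤) (hq : Fintype.card F = 2) {H : Subgroup (GL (Fin 10) F)} (hle : H ≤ omegaGL Q)
    (hne : H ≠ omegaGL Q) : Red H := by
  obtain ⟨M, hM, hHM⟩ := H905.exists_isMaximalIn_of_lt (lt_of_le_of_ne hle hne)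
  have hirr : ¬ ActsIrreducibly (matrixSet M) := by
    intro hirr
    rcases H925.plus10_irreducible (Fintype.card_fin 10) hQ hplus hM.1.le hirr with
      ⟨⟨p, hp, hcp, hp4⟩, -⟩ | ⟨h7, -⟩ | ⟨h1, -⟩ | ⟨ho, -⟩ | ⟨F₀, r, X, ζ, hr, hcard, -⟩ | h
    · omega
    · omega
    · omega
    · rw [hq] at ho
      exact absurd ho (by decide)
    · have h0 : 2 ≤ Nat.card F₀ := Finite.one_lt_card
      have h1 : Nat.card F₀ ^ 2 ≤ Nat.card F₀ ^ r := Nat.pow_le_pow_right (by omega) hr.two_le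
      have h2 : 2 ^ 2 ≤ Nat.card F₀ ^ 2 := Nat.pow_le_pow_left h0 2
      omega
    · obtain ⟨P, -, hcase⟩ := hR Q hQ hplus M hM h
      rcases hcase with ⟨-, -, -, h3⟩ | ⟨-, -, -, h3⟩ | ⟨-, h3⟩ | ⟨-, h3⟩ <;> omega
  unfold ActsIrreducibly at hirr
  push Not at hirr
  obtain ⟨W, hW, h0, h1⟩ := hirr
  refine ⟨W, h0, h1, hHM.trans ?_⟩
  intro z hz
  have key : ∀ z ∈ M, ∀ w ∈ W, (z : Matrix (Fin 10) (Fin 10) F) *ᵥ w ∈ W := by
    intro z hz w hw
    exact hW _ ⟨z, hz, rfl⟩ ⟨w, hw, Matrix.toLin'_apply _ _⟩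
  intro w
  refine ⟨fun hw => key z hz w hw, fun hw => ?_⟩
  have hw' : (z : Matrix (Fin 10) (Fin 10) F) *ᵥ w ∈ W := hw
  have h3 := key z⁻¹ (M.inv_mem hz) _ hw'
  rwa [Matrix.mulVec_mulVec, ← Units.val_mul, inv_mul_cancel, Units.val_one, Matrix.one_mulVec] at h3

theorem core_two (hR : S5848Stmt) {Q : QuadraticForm F (Fin 10 → F)} (hQ : Sg Q 5 1)
    (hplus : IsPlusTypeOn (⇑Q) ⊤) (hq : Fintype.card F = 2) : NoTwo (Omega F ⇑Q) := by
  have hn : Fintype.card (Fin 10) = 10 := Fintype.card_fin 10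
  have hQ' : IsNondegenerateQuadraticForm ⇑Q := isNondeg hQ.nondeg
  have h5 : 5 ≤ Fintype.card (Fin 10) := by rw [hn]; norm_num
  obtain ⟨A, hA, -, dA⟩ := exNN (a := 4) (e := 1) (M := 17) (N := 3) hQ h5 rfl (by norm_num) (by norm_num)
    (by rw [hq]; norm_num) (by decide) (by
      rw [hq]
      intro j h1 h2
      interval_cases j <;> decide) (by rw [hq]; norm_num) (by decide) (by
      rw [hq]
      intro j h1 h2
      interval_cases j; decide) (by decide)
  obtain ⟨B, hB, -, dB⟩ := exNN (a := 3) (e := 2) (M := 9) (N := 5) hQ h5 rfl (by norm_num) (by norm_num)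
    (by rw [hq]; norm_num) (by decide) (by
      rw [hq]
      intro j h1 h2
      interval_cases j <;> decide) (by rw [hq]; norm_num) (by decide) (by
      rw [hq]
      intro j h1 h2
      interval_cases j <;> decide) (by decide)
  obtain ⟨t, ht⟩ := exists_ppd (q := Fintype.card F) (k := 5) Fintype.one_lt_card (by norm_num) (by rintro ⟨-, h⟩; omega)
  obtain ⟨C, hC, -, -, dC⟩ := exC (N := t) hQ hn ht dvd_rfl ((ht.iff 5).2 dvd_rfl) (ppd_odd ht (by norm_num))
  obtain ⟨A', rfl⟩ : ∃ A', emb ⇑Q A' = A := by rw [← range_emb] at hA; exact hA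
  obtain ⟨B', rfl⟩ : ∃ B', emb ⇑Q B' = B := by rw [← range_emb] at hB; exact hB
  obtain ⟨C', rfl⟩ : ∃ C', emb ⇑Q C' = C := by rw [← range_emb] at hC; exact hC
  refine noTwo_of_three (x := A') (y := B') (z := C') (inc_of fun H hle hne g g' h1 h2 => ?_)
    (inc_of fun H hle hne g g' h1 h2 => ?_) (inc_of fun H hle hne g g' h1 h2 => ?_)
  · refine red_dims (red_two hR hQ' hplus hq hle hne) h1 h2 (dA.conj g) (dB.conj g') fun d h0 h10 h3 h4 => ?_
    rw [hn] at h10
    simp only [Set.mem_insert_iff, Set.mem_singleton_iff] at h3 h4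
    omega
  · refine red_dims (red_two hR hQ' hplus hq hle hne) h1 h2 (dB.conj g) (dC.conj g') fun d h0 h10 h3 h4 => ?_
    rw [hn] at h10
    simp only [Set.mem_insert_iff, Set.mem_singleton_iff, Set.mem_ofPred_eq] at h3 h4
    omega
  · refine red_dims (red_two hR hQ' hplus hq hle hne) h1 h2 (dA.conj g) (dC.conj g') fun d h0 h10 h3 h4 => ?_
    rw [hn] at h10
    simp only [Set.mem_insert_iff, Set.mem_singleton_iff, Set.mem_ofPred_eq] at h3 h4
    omega

/-- **`PΩ⁺₁₀(2)`.** -/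
theorem noTwo_ten_two (hR : S5848Stmt) (hq : Fintype.card F = 2) : NoTwo (POmega F (quadFormPlus 5 F)) := by
  let e : Fin 5 ⊕ Fin 5 ≃ Fin 10 := Fintype.equivFinOfCardEq (by simp)
  have hs : Sg (reindexForm e (plusForm 5 F)) 5 1 := by
    refine (sg_plusForm (F := F) 5).congr (LinearEquiv.funCongrLeft F F e.symm) fun v => ?_
    rw [LieClassical.OmegaReindex.reindexForm_apply]
    congr 1
    funext i
    simp [LinearEquiv.funCongrLeft, LinearMap.funLeft]
  have key := core_two hR hs (plusType e (Fintype.card_fin 10)) hq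
  have key2 : NoTwo (Omega F ⇑(plusForm 5 F)) :=
    key.congr (omegaCongr (isometryGroupReindex e (⇑(plusForm 5 F)) (⇑(reindexForm e (plusForm 5 F)))
      (fun v => rfl))).symm
  rw [coe_plusForm] at key2
  exact key2.of_surjective (QuotientGroup.mk' _) (QuotientGroup.mk'_surjective _)

open Cfsg.Agent.H659.CovCore (S5948Stmt) in
/-- **`PΩ⁺_{2m}(q)`, `m ≥ 5`,** except `q = 2`, `6 ≤ m ≤ 8`. -/
theorem noTwo_plus_all (hP : S5948Stmt.{0}) (hR : S5848Stmt) {m : ℕ} (hm : 5 ≤ m)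
    (h2 : Fintype.card F = 2 → m = 5 ∨ 9 ≤ m) : NoTwo (POmega F (quadFormPlus m F)) := by
  by_cases h : Fintype.card F = 2 ∧ m = 5
  · obtain ⟨hq, rfl⟩ := h
    exact noTwo_ten_two hR hq
  · exact noTwo_plus_five hP hR hm fun hq => (h2 hq).resolve_left fun h5 => h ⟨hq, h5⟩

end Cfsg.Agent.H383.Cov.Ten
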